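import Cfsg.Agent.Comp.G24.Main
import Cfsg.Agent.Comp.OutKit

set_option autoImplicit false
set_option maxRecDepth 100000

namespace Cfsg.Agent.Comp.G24
open Cfsg.Agent.Comp

theorem st0 {bs : List ℕ} {m : ℕ} (h : BaseGe (genW (sig T) lowW1) bs m) :
    BaseGe (genW (sig T) (letters 6)) (0 :: bs) (416 * m) :=
  BaseGe.step (W' := lowW1) (b := 0) (n := 416) ok (le_of_subOK eqs (show subOK (letters 6) lowW1 E = true by decide +kernel)) (by decide +kernel)
    (le_ncard_of_ivl (a := 0) ok (by norm_num) (show Nat.beq (grow T (letters 6) [5, 1, 0, 2, 1, 3, 2, 0, 4, 1, 5, 3, 0, 2, 1, 5, 0, 3, 4, 1, 2, 0, 1] (pt (nat_lit 0))) (ivl (nat_lit 0) (nat_lit 416)) = true by decide +kernel)) h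

theorem st1 {bs : List ℕ} {m : ℕ} (h : BaseGe (genW (sig T) lowW2) bs m) :
    BaseGe (genW (sig T) lowW1) (101 :: bs) (315 * m) :=
  BaseGe.step (W' := lowW2) (b := 101) (n := 315) ok (le_of_subOK eqs (show subOK lowW1 lowW2 E = true by decide +kernel)) (by decide +kernel)
    (le_ncard_of_ivl (a := 101) ok (by norm_num) (show Nat.beq (grow T lowW1 [0, 1, 3, 4, 2, 3, 2, 1, 0, 3, 4, 1, 2, 3, 2, 0, 1] (pt (nat_lit 101))) (ivl (nat_lit 101) (nat_lit 315)) = true by decide +kernel)) h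

theorem st2 {bs : List ℕ} {m : ℕ} (h : BaseGe (genW (sig T) lowW3) bs m) :
    BaseGe (genW (sig T) lowW2) (103 :: bs) (160 * m) :=
  BaseGe.step (W' := lowW3) (b := 103) (n := 160) ok (le_of_subOK eqs (show subOK lowW2 lowW3 E = true by decide +kernel)) (by decide +kernel)
    (le_ncard_of_orbGe ok (by norm_num) (show orbGe (nat_lit 416) (nat_lit 9) T lowW2 [0, 1, 3, 2, 3, 1, 2, 3, 0, 1, 3, 0] (nat_lit 103) (nat_lit 160) = true by decide +kernel)) h

theorem st3 {bs : List ℕ} {m : ℕ} (h : BaseGe (genW (sig T) []) bs m) :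
    BaseGe (genW (sig T) lowW3) (7 :: bs) (12 * m) :=
  BaseGe.step (W' := []) (b := 7) (n := 12) ok (le_of_subOK eqs (show subOK lowW3 [] E = true by decide +kernel)) (by decide +kernel)
    (le_ncard_of_orbGe ok (by norm_num) (show orbGe (nat_lit 416) (nat_lit 9) T lowW3 [0, 1, 0, 1, 0] (nat_lit 7) (nat_lit 12) = true by decide +kernel)) h

theorem cardR : Nat.card phi.range = 251596800 := by rw [rep.range, rep.card_gen card.2.2, card.2.1]

theorem base : IsBase phi.range [0, 101, 103, 7] :=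
  BaseGe.isBase (st0 (st1 (st2 (st3 (BaseGe.nil _))))) rep.range.ge (by rw [cardR]) (by norm_num)

theorem inj : Function.Injective phi := card.2.2

theorem ext1 : Rep (liftS phi (sig T)) 11 416 T phi ∧ ∀ x < 6, liftS phi (sig T) x = s x :=
  rep.extend inj ok (fun _ _ => rfl) eqs (by decide +kernel) rfl

theorem rep1 : Rep (liftS phi (sig T)) 11 416 T phi := ext1.1

end Cfsg.Agent.Comp.G24
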