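import Cfsg.Agent.Comp.G24.Base
import Cfsg.Agent.Comp.ChevKit
import Cfsg.Agent.Comp.J2.Main

set_option autoImplicit false
set_option maxRecDepth 100000

namespace Cfsg.Agent.Comp.G24
open Cfsg.Agent.Comp

def twJ : List (List Nat) :=
  [[0, 3, 2, 1, 4, 3, 2, 1, 0, 3, 2, 4, 3],
   [3, 2, 1, 0, 1, 2, 3, 2, 4, 3, 2, 1, 0, 1, 2, 3, 2, 4, 3, 2, 1, 0, 1, 2, 3],
   [1, 3, 4, 3, 2, 1, 0, 3, 2, 1, 0, 4, 3, 2, 1, 0, 3, 2, 4, 3, 1, 2, 3, 4, 3, 2, 1],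
   [0, 1, 2, 1, 0, 3, 2, 1, 4, 3, 2, 1, 3, 2, 4, 3, 2, 1, 0, 1, 2, 3, 2, 3, 4, 3],
   [1, 0, 2, 3, 4, 3, 2, 1, 0, 3, 2, 1, 0, 3, 2, 3, 4, 3, 2, 1],
   [1, 2, 3, 2, 1, 0, 1, 2, 3, 2, 1]]

theorem eJ : ∀ e ∈ ((J2.R.map (subst twJ)).map fun w => (w, ([] : List ℕ))), ev s e.1 = ev s e.2 :=
  rep.eqB inj base (by decide +kernel)

/-- the images of the generators -/
noncomputable def tJ (x : ℕ) : G := ev s (twJ.getD x [])

theorem isoJ : Nonempty (J2.G ≃* gen tJ 6) :=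
  have := J2.simple
  ⟨(J2.pres.equiv_of_simple (by decide +kernel) tJ (Sat.subst (sat_of_eqs eJ)) (x := 0) (by norm_num)
    (rep.ne (show neqB 6 416 T (ivl 0 208) (twJ.getD 0 []) [] = true by decide +kernel))).choose⟩

def primAW : List (List Nat) :=
  [[0, 1, 2, 3],
   [2],
   [],
   [],
   [],
   [],
   [],
   [],
   [0, 1, 3, 4, 3, 2, 1, 3, 4, 0, 2, 3, 1, 0, 2, 3, 2, 4]]

def primAT : List (List Nat × List Nat) :=
  [([0], [0, 1, 0, 2, 1, 2, 9, 2, 0, 1, 2, 0, 1, 1]),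
   ([4], [0, 1, 0, 2, 1, 0, 2, 1, 0, 2, 1, 0, 2, 1])]

theorem primA : Prim ((genW s W0).map phi) 1 :=
  prim_sub ok (S := ivl 1 100) (fun g hg => by
      rw [bset_ivl (by norm_num), ← orb1.1, ← rep.map_genW (by decide +kernel)]; exact ⟨⟨g, hg⟩, rfl⟩)
    (rep.genW_le_stab (W := primAW) stab.2 (by decide +kernel))
    (fun t ht => rep.genW_le_stab (W := primAT.map Prod.fst) stab.2 (by decide +kernel)
      (ev_mem_genW (List.mem_map_of_mem ht))) (sch := [0, 1, 0, 1, 0, 1, 0, 1, 0, 0, 0, 1, 8, 1, 0, 1, 0, 1, 0]) (by decide +kernel)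

def primBW : List (List Nat) :=
  [[2],
   [1, 0, 2, 1, 3, 2, 3, 2, 0, 1, 2, 0],
   [1, 0, 4, 3, 2, 3, 2, 4, 3, 0, 1, 4]]

def primBT : List (List Nat × List Nat) :=
  [([0], [0, 2, 3, 0, 3, 0, 1, 2, 0, 3, 0, 1, 2, 0, 2, 3, 1]),
   ([1], [0, 1, 2, 0, 1, 0, 3, 0, 1, 0, 2, 0, 1, 0, 3, 0, 1]),
   ([3], [0, 1, 0, 1, 0, 1, 0, 2, 0, 1, 0, 1, 3, 1, 0, 1, 0, 1, 0, 2, 1, 0, 1, 2]),
   ([4], [0, 2, 0, 1, 3, 1, 0, 2, 0, 1, 3, 0, 1, 2, 0, 1, 3]),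
   ([0, 3], [0, 1, 0, 1, 0, 1, 0, 2, 1, 0, 1, 3, 1, 0, 1, 2, 1, 0, 1, 0, 1, 2])]

theorem primB : Prim ((genW s W0).map phi) 101 :=
  prim_sub ok (S := ivl 101 315) (fun g hg => by
      rw [bset_ivl (by norm_num), ← orb101.1, ← rep.map_genW (by decide +kernel)]; exact ⟨⟨g, hg⟩, rfl⟩)
    (rep.genW_le_stab (W := primBW) stab.2 (by decide +kernel))
    (fun t ht => rep.genW_le_stab (W := primBT.map Prod.fst) stab.2 (by decide +kernel)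
      (ev_mem_genW (List.mem_map_of_mem ht))) (sch := [0, 1, 0, 2, 0, 1, 0, 2, 0, 1, 1, 2]) (by decide +kernel)

theorem isoW : Nonempty (J2.G ≃* genW s W0) := by
  obtain ⟨e⟩ := isoJ
  have := card.1
  exact ⟨e.trans (MulEquiv.subgroupCongr (Subgroup.eq_of_le_of_card_ge
    (rep.gen_le_stab (tw := twJ) stab.2 (by decide +kernel)) (by
      rw [← Nat.card_congr e.toEquiv, J2.card.2.1,
        card_eq_of_index (m := 604800) card.2.1 stab.1 (by norm_num)])))⟩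

theorem primS : ∀ i < 416, i ≠ 0 → Prim ((genW s W0).map phi) i ∧ ∃ k ∈ (genW s W0).map phi, k i ≠ i := by
  intro i h1 h2
  by_cases h : i < 101
  · exact prim_orbit primA (by rw [rep.map_genW (by decide +kernel)]; exact orb1.1) (by norm_num) (by omega)
  · exact prim_orbit primB (by rw [rep.map_genW (by decide +kernel)]; exact orb101.1) (by norm_num) (by omega)

theorem extPrim {H : Type*} [Group H] (e : G ≃* H) : ∃ K : Subgroup H, IsCoatom K ∧ Nonempty (K ≃* J2.G) ∧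
    ∀ x : H, x ∉ K → IsCoatom ((K ⊓ K.map (MulAut.conj x).toMonoidHom).subgroupOf K) := by
  have hK : ∀ g, g ∈ (genW s W0).map e.toMonoidHom ↔ (phi.comp e.symm.toMonoidHom) g 0 = 0 := fun g => by
    rw [Subgroup.mem_map_equiv, stab.2]; rfl
  obtain ⟨e2⟩ := isoW
  obtain ⟨g, hg⟩ := trans 1 (by norm_num)
  refine ⟨_, isCoatom_of_prim hK (by rw [(rep.congr e).range]; exact prim) ⟨e g, by simp [hg]⟩,
    ⟨(e2.trans (e.subgroupMap _)).symm⟩, ext_prim hK (n := 416)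
      (fun g => Bd.lt (rep.bd _) (by norm_num)) ?_⟩
  rw [Subgroup.map_map, show (phi.comp e.symm.toMonoidHom).comp e.toMonoidHom = phi by ext1; simp]
  exact primS

end Cfsg.Agent.Comp.G24
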